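import Mathlib

/-!
# S3691, `Sp_6(q)`, `q` even: involutions of rank three are conjugate (helper544)

`B` alternating nondegenerate on `V` of dimension six, characteristic two, perfect field.

* `exists_std` : an involutive isometry `t` with `dim C_V(t) = 3` has a standard basis
* `conj3` : two such isometries are conjugate under an isometry.
-/

set_option autoImplicit false
set_option linter.unusedSectionVars false
set_option linter.unusedSimpArgs false

namespace Cfsg.Agent.H544.Rg

open Module LinearMap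

universe u v

variable {F : Type u} {V : Type v} [Field F] [AddCommGroup V] [Module F V]

section char2

theorem two_eq_zero [CharP F 2] : (2 : F) = 0 := by
  have := CharP.cast_eq_zero F 2
  simpa using this

theorem add_self_F [CharP F 2] (a : F) : a + a = 0 := by
  rw [← two_mul, two_eq_zero, zero_mul]

theorem add_self_V [CharP F 2] (v : V) : v + v = 0 := by
  rw [← two_smul F v, two_eq_zero, zero_smul]

theorem neg_F [CharP F 2] (a : F) : -a = a := neg_eq_of_add_eq_zero_left (add_self_F a)

end char2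

/-- a nilpotent self-adjoint operator -/
structure Nil (B : LinearMap.BilinForm F V) (N : Module.End F V) : Prop where
  alt : ∀ x, B x x = 0
  nd : ∀ x, (∀ y, B x y = 0) → x = 0
  sq : ∀ x, N (N x) = 0
  adj : ∀ x y, B (N x) y = B x (N y)
  rk : finrank F (LinearMap.range N) = 3
  dim : finrank F V = 6

namespace Nil

variable [CharP F 2] {B : LinearMap.BilinForm F V} {N : Module.End F V}

theorem symm (h : Nil B N) (x y : V) : B x y = B y x := by
  have h1 := h.alt (x + y)
  simp only [map_add, LinearMap.add_apply, h.alt, zero_add, add_zero] at h1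
  rw [← neg_F (B x y)]
  exact (eq_neg_of_add_eq_zero_left h1).symm

/-- `β(x, y) = B(x, N y)` is symmetric -/
theorem bsymm (h : Nil B N) (x y : V) : B x (N y) = B y (N x) := by
  rw [← h.adj, h.symm]

theorem fin (h : Nil B N) : FiniteDimensional F V := by
  apply FiniteDimensional.of_finrank_pos
  rw [h.dim]
  norm_num

theorem ker_rk (h : Nil B N) : finrank F (LinearMap.ker N) = 3 := by
  have := h.fin
  have h1 := LinearMap.finrank_range_add_finrank_ker N
  have h2 := h.rk
  have h3 := h.dim
  omega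

/-- four vectors have a singular Gram matrix -/
theorem gram (h : Nil B N) (e : Fin 4 → V) : ∃ c : Fin 4 → F, c ≠ 0 ∧ ∀ x, ∑ j, c j * B x (N (e j)) = 0 := by
  have := h.fin
  have h1 : ¬ LinearIndependent F (fun j => (⟨N (e j), e j, rfl⟩ : LinearMap.range N)) := by
    intro hli
    have h2 := hli.fintype_card_le_finrank
    rw [h.rk, Fintype.card_fin] at h2
    omega
  rw [Fintype.not_linearIndependent_iff] at h1
  obtain ⟨c, hc, i, hi⟩ := h1
  refine ⟨c, fun h0 => hi (by rw [h0]; rfl), fun x => ?_⟩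
  have h2 : ∑ j, c j • N (e j) = 0 := by
    have h3 := congrArg Subtype.val hc
    rw [AddSubmonoidClass.coe_finsetSum] at h3
    exact h3
  have h4 := congrArg (B x) h2
  rw [map_sum, map_zero] at h4
  rw [← h4]
  refine Finset.sum_congr rfl fun j _ => ?_
  rw [map_smul, smul_eq_mul]

/-- two linear conditions leave a vector outside the kernel -/
theorem exists_of_two (h : Nil B N) (f g : V →ₗ[F] F) : ∃ z, f z = 0 ∧ g z = 0 ∧ N z ≠ 0 := by
  have := h.fin
  by_contra hcon
  push Not at hcon
  have hle : LinearMap.ker f ⊓ LinearMap.ker g ≤ LinearMap.ker N := fun z hz => hcon z hz.1 hz.2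
  have h1 := Submodule.finrank_mono hle
  rw [h.ker_rk] at h1
  have hf : ∀ f : V →ₗ[F] F, 5 ≤ finrank F (LinearMap.ker f) := by
    intro f
    have h2 := LinearMap.finrank_range_add_finrank_ker f
    have h3 : finrank F (LinearMap.range f) ≤ 1 := by
      have := Submodule.finrank_le (LinearMap.range f)
      rwa [finrank_self] at this
    have h4 := h.dim
    omega
  have h2 := Submodule.finrank_sup_add_finrank_inf_eq (LinearMap.ker f) (LinearMap.ker g)
  have h3 := Submodule.finrank_le (LinearMap.ker f ⊔ LinearMap.ker g)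
  have h4 := hf f
  have h5 := hf g
  have h6 := h.dim
  omega

/-- a vector outside the kernel pairs with something -/
theorem exists_pair (h : Nil B N) {z : V} (hz : N z ≠ 0) : ∃ w, B z (N w) = 1 := by
  by_contra hcon
  push Not at hcon
  apply hz
  apply h.nd
  intro y
  by_contra hy
  apply hcon ((B (N z) y)⁻¹ • y)
  rw [map_smul, map_smul, smul_eq_mul, ← h.adj, inv_mul_cancel₀ hy]

/-- the form `β` is not alternating -/
theorem exists_ne (h : Nil B N) : ∃ x, B x (N x) ≠ 0 := by
  by_contra hcon
  push Not at hcon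
  obtain ⟨a, -, -, ha⟩ := h.exists_of_two 0 0
  obtain ⟨b, hab⟩ := h.exists_pair ha
  obtain ⟨z, hza, hzb, hz⟩ := h.exists_of_two ((LinearMap.flip B) (N a)) ((LinearMap.flip B) (N b))
  rw [LinearMap.flip_apply] at hza hzb
  obtain ⟨w, hw⟩ := h.exists_pair hz
  have hba : B b (N a) = 1 := by rw [h.bsymm, hab]
  obtain ⟨w', hw'a, hw'b, hzw'⟩ : ∃ w', B w' (N a) = 0 ∧ B w' (N b) = 0 ∧ B z (N w') = 1 := by
    refine ⟨w + B w (N b) • a + B w (N a) • b, ?_, ?_, ?_⟩
    · simp only [map_add, map_smul, LinearMap.add_apply, LinearMap.smul_apply, smul_eq_mul, hcon, hba]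
      rw [mul_zero, add_zero, mul_one, add_self_F]
    · simp only [map_add, map_smul, LinearMap.add_apply, LinearMap.smul_apply, smul_eq_mul, hcon, hab]
      rw [mul_zero, add_zero, mul_one, add_self_F]
    · simp only [map_add, map_smul, smul_eq_mul, hza, hzb, hw]
      ring
  obtain ⟨c, hc0, hc⟩ := h.gram ![a, b, z, w']
  apply hc0
  have hw'z : B w' (N z) = 1 := by rw [h.bsymm, hzw']
  have haz : B a (N z) = 0 := by rw [h.bsymm, hza]
  have hbz : B b (N z) = 0 := by rw [h.bsymm, hzb]
  have haw : B a (N w') = 0 := by rw [h.bsymm, hw'a]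
  have hbw : B b (N w') = 0 := by rw [h.bsymm, hw'b]
  have e1 := hc a
  have e2 := hc b
  have e3 := hc z
  have e4 := hc w'
  simp only [Fin.sum_univ_four, Matrix.cons_val_zero, Matrix.cons_val_one, Matrix.cons_val, hcon, hab, hba, hza, hzb,
    hzw', hw'z, hw'a, hw'b, haz, hbz, haw, hbw, mul_zero, mul_one, add_zero, zero_add] at e1 e2 e3 e4
  ext i
  fin_cases i
  · exact e2
  · exact e1
  · exact e4
  · exact e3

/-- scaling -/
theorem exists_one (hsq : ∀ a : F, ∃ b, b * b = a) {x : V} (hx : B x (N x) ≠ 0) : ∃ c : F, B (c • x) (N (c • x)) = 1 := by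
  obtain ⟨b, hb⟩ := hsq (B x (N x))
  have hb0 : b ≠ 0 := by
    rintro rfl
    rw [mul_zero] at hb
    exact hx hb.symm
  refine ⟨b⁻¹, ?_⟩
  rw [map_smul, map_smul, map_smul, LinearMap.smul_apply, smul_eq_mul, smul_eq_mul, ← hb]
  field_simp

/-- an orthonormal triple for `β` -/
theorem exists_ortho (hsq : ∀ a : F, ∃ b, b * b = a) (h : Nil B N) : ∃ x y z : V, B x (N x) = 1 ∧ B y (N y) = 1 ∧
    B z (N z) = 1 ∧ B x (N y) = 0 ∧ B x (N z) = 0 ∧ B y (N z) = 0 := by
  obtain ⟨x0, hx0⟩ := h.exists_ne
  obtain ⟨c, hx⟩ := exists_one hsq hx0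
  obtain ⟨x, rfl⟩ : ∃ x, x = c • x0 := ⟨_, rfl⟩
  generalize c • x0 = x at hx
  by_cases hcase : ∃ y, B y (N x) = 0 ∧ B y (N y) ≠ 0
  · obtain ⟨y0, hy0x, hy0⟩ := hcase
    obtain ⟨d, hy⟩ := exists_one hsq hy0
    have hyx : B (d • y0) (N x) = 0 := by rw [map_smul, LinearMap.smul_apply, hy0x, smul_zero]
    generalize d • y0 = y at hy hyx
    have hxy : B x (N y) = 0 := by rw [h.bsymm, hyx]
    obtain ⟨z0, hzx, hzy, hz0⟩ := h.exists_of_two ((LinearMap.flip B) (N x)) ((LinearMap.flip B) (N y))
    rw [LinearMap.flip_apply] at hzx hzy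
    have hxz : B x (N z0) = 0 := by rw [h.bsymm, hzx]
    have hyz : B y (N z0) = 0 := by rw [h.bsymm, hzy]
    by_cases hzz : B z0 (N z0) = 0
    · exfalso
      obtain ⟨w, hw⟩ := h.exists_pair hz0
      obtain ⟨w', hw'x, hw'y, hzw'⟩ : ∃ w', B w' (N x) = 0 ∧ B w' (N y) = 0 ∧ B z0 (N w') = 1 := by
        refine ⟨w + B w (N x) • x + B w (N y) • y, ?_, ?_, ?_⟩
        · simp only [map_add, map_smul, LinearMap.add_apply, LinearMap.smul_apply, smul_eq_mul, hx, hyx]
          rw [mul_zero, add_zero, mul_one, add_self_F]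
        · simp only [map_add, map_smul, LinearMap.add_apply, LinearMap.smul_apply, smul_eq_mul, hy, hxy]
          rw [mul_zero, add_zero, mul_one, add_self_F]
        · simp only [map_add, map_smul, smul_eq_mul, hzx, hzy, hw]
          ring
      have hw'z : B w' (N z0) = 1 := by rw [h.bsymm, hzw']
      have hxw : B x (N w') = 0 := by rw [h.bsymm, hw'x]
      have hyw : B y (N w') = 0 := by rw [h.bsymm, hw'y]
      obtain ⟨c, hc0, hc⟩ := h.gram ![x, y, z0, w']
      apply hc0
      have e1 := hc x
      have e2 := hc y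
      have e3 := hc z0
      have e4 := hc w'
      simp only [Fin.sum_univ_four, Matrix.cons_val_zero, Matrix.cons_val_one, Matrix.cons_val, hx, hy, hxy, hyx, hxz,
        hyz, hzx, hzy, hzz, hzw', hw'z, hw'x, hw'y, hxw, hyw, mul_zero, mul_one, add_zero, zero_add] at e1 e2 e3 e4
      rw [e3, zero_mul, add_zero] at e4
      ext i
      fin_cases i
      · exact e1
      · exact e2
      · exact e4
      · exact e3
    · obtain ⟨c, hz⟩ := exists_one hsq hzz
      refine ⟨x, y, c • z0, hx, hy, hz, hxy, ?_, ?_⟩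
      · rw [map_smul, map_smul, hxz, smul_zero]
      · rw [map_smul, map_smul, hyz, smul_zero]
  · push Not at hcase
    obtain ⟨a, hax, -, ha⟩ := h.exists_of_two ((LinearMap.flip B) (N x)) 0
    rw [LinearMap.flip_apply] at hax
    obtain ⟨w, hw⟩ := h.exists_pair ha
    obtain ⟨b, hbx, hab⟩ : ∃ b, B b (N x) = 0 ∧ B a (N b) = 1 := by
      refine ⟨w + B w (N x) • x, ?_, ?_⟩
      · simp only [map_add, map_smul, LinearMap.add_apply, LinearMap.smul_apply, smul_eq_mul, hx]
        rw [mul_one, add_self_F]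
      · simp only [map_add, map_smul, smul_eq_mul, hax, hw]
        ring
    have haa := hcase a hax
    have hbb := hcase b hbx
    have hxa : B x (N a) = 0 := by rw [h.bsymm, hax]
    have hxb : B x (N b) = 0 := by rw [h.bsymm, hbx]
    have hba : B b (N a) = 1 := by rw [h.bsymm, hab]
    have h11 : (1 : F) + 1 = 0 := add_self_F 1
    refine ⟨x + a, x + b, x + a + b, ?_, ?_, ?_, ?_, ?_, ?_⟩ <;>
      simp only [map_add, LinearMap.add_apply, hx, haa, hbb, hax, hbx, hxa, hxb, hab, hba, add_zero, zero_add, h11]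

/-- a standard basis -/
theorem exists_std (hsq : ∀ a : F, ∃ b, b * b = a) (h : Nil B N) : ∃ u : Fin 3 → V, (∀ i j, B (u i) (u j) = 0) ∧
    ∀ i j, B (u i) (N (u j)) = if i = j then 1 else 0 := by
  obtain ⟨x, y, z, hx, hy, hz, hxy, hxz, hyz⟩ := h.exists_ortho hsq
  have hyx : B y (N x) = 0 := by rw [h.bsymm, hxy]
  have hzx : B z (N x) = 0 := by rw [h.bsymm, hxz]
  have hzy : B z (N y) = 0 := by rw [h.bsymm, hyz]
  have hnn : ∀ p q, B (N p) (N q) = 0 := fun p q => by rw [h.adj, h.sq, map_zero]
  have sx : ∀ p q, B (N p) q = B p (N q) := h.adj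
  have s1 := h.symm y x
  have s2 := h.symm z x
  have s3 := h.symm z y
  refine ⟨![x + B x y • N y + B x z • N z, y + B y z • N z, z], ?_, ?_⟩
  · have H : ∀ i j : Fin 3, i < j → B ((![x + B x y • N y + B x z • N z, y + B y z • N z, z] : Fin 3 → V) i)
        ((![x + B x y • N y + B x z • N z, y + B y z • N z, z] : Fin 3 → V) j) = 0 := by
      intro i j hij
      fin_cases i <;> fin_cases j <;>
        simp only [Fin.zero_eta, Fin.mk_one, Fin.reduceFinMk, Matrix.cons_val_zero, Matrix.cons_val_one, Matrix.cons_val,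
          lt_self_iff_false] at hij ⊢
      · simp only [map_add, map_smul, LinearMap.add_apply, LinearMap.smul_apply, smul_eq_mul, hnn, sx, hy, hz, hxy, hxz,
          hyz, hyx, hzx, hzy, mul_zero, mul_one, add_zero, zero_add]
        exact add_self_F _
      · simp only [map_add, map_smul, LinearMap.add_apply, LinearMap.smul_apply, smul_eq_mul, hnn, sx, hy, hz, hxy, hxz,
          hyz, hyx, hzx, hzy, mul_zero, mul_one, add_zero, zero_add]
        exact add_self_F _
      · exact absurd hij (by decide)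
      · simp only [map_add, map_smul, LinearMap.add_apply, LinearMap.smul_apply, smul_eq_mul, hnn, sx, hy, hz, hxy, hxz,
          hyz, hyx, hzx, hzy, mul_zero, mul_one, add_zero, zero_add]
        exact add_self_F _
      · exact absurd hij (by decide)
      · exact absurd hij (by decide)
    intro i j
    rcases lt_trichotomy i j with hij | hij | hij
    · exact H i j hij
    · rw [hij]
      exact h.alt _
    · rw [h.symm]
      exact H j i hij
  · intro i j
    fin_cases i <;> fin_cases j <;>
      simp [map_add, map_smul, LinearMap.add_apply, LinearMap.smul_apply, smul_eq_mul, hnn, h.sq, sx, hx, hy, hz, hxy, hxz,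
          hyz, hyx, hzx, hzy]

end Nil

/-- the family `u, N u` -/
def fam (N : Module.End F V) (u : Fin 3 → V) : Fin 3 ⊕ Fin 3 → V := Sum.elim u fun i => N (u i)

/-- it is a basis -/
theorem exists_basis [CharP F 2] {B : LinearMap.BilinForm F V} {N : Module.End F V} (h : Nil B N) {u : Fin 3 → V}
    (h1 : ∀ i j, B (u i) (u j) = 0) (h2 : ∀ i j, B (u i) (N (u j)) = if i = j then 1 else 0) :
    ∃ b : Basis (Fin 3 ⊕ Fin 3) F V, ∀ i, b i = fam N u i := by
  have := h.fin
  have hnn : ∀ p q, B (N p) (N q) = 0 := fun p q => by rw [h.adj, h.sq, map_zero]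
  have hli : LinearIndependent F (fam N u) := by
    rw [Fintype.linearIndependent_iff]
    intro g hg
    rw [Fintype.sum_sum_type] at hg
    simp only [fam, Sum.elim_inl, Sum.elim_inr] at hg
    have e1 : ∀ j : Fin 3, g (Sum.inl j) = 0 := by
      intro j
      have h3 := congrArg (B (N (u j))) hg
      rw [map_add, map_sum, map_sum, map_zero] at h3
      simp only [map_smul, smul_eq_mul, hnn, mul_zero, Finset.sum_const_zero, add_zero, h.adj, h.bsymm (u j)] at h3
      have h4 : ∀ i : Fin 3, B (N (u j)) (u i) = if i = j then 1 else 0 := fun i => by rw [h.adj, h.bsymm, h.bsymm, h2]; simp only [eq_comm]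
      simpa [h.adj, h2] using h3
    have e2 : ∀ j : Fin 3, g (Sum.inr j) = 0 := by
      intro j
      have h3 := congrArg (B (u j)) hg
      rw [map_add, map_sum, map_sum, map_zero] at h3
      simp only [map_smul, smul_eq_mul, h1, mul_zero, Finset.sum_const_zero, zero_add, h2] at h3
      simpa using h3
    rintro (j | j)
    · exact e1 j
    · exact e2 j
  exact ⟨basisOfLinearIndependentOfCardEqFinrank hli (by rw [h.dim]; rfl), fun i => by simp⟩

/-- **the involutions of rank three are conjugate.** -/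
theorem conj3 [CharP F 2] (hsq : ∀ a : F, ∃ b, b * b = a) {B : LinearMap.BilinForm F V}
    {N N' : Module.End F V} (h : Nil B N) (h' : Nil B N') :
    ∃ g : V ≃ₗ[F] V, (∀ x y, B (g x) (g y) = B x y) ∧ ∀ x, g (N x) = N' (g x) := by
  obtain ⟨u, hu1, hu2⟩ := h.exists_std hsq
  obtain ⟨u', hu1', hu2'⟩ := h'.exists_std hsq
  obtain ⟨b, hb⟩ := exists_basis h hu1 hu2
  obtain ⟨b', hb'⟩ := exists_basis h' hu1' hu2'
  let g : V ≃ₗ[F] V := b.equiv b' (Equiv.refl _)
  have hg : ∀ i, g (b i) = b' i := fun i => by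
    rw [Basis.equiv_apply, Equiv.refl_apply]
  refine ⟨g, ?_, ?_⟩
  · have key : ∀ i j, B (b' i) (b' j) = B (b i) (b j) := by
      intro i j
      rw [hb, hb, hb', hb']
      rcases i with i | i <;> rcases j with j | j <;> simp only [fam, Sum.elim_inl, Sum.elim_inr]
      · rw [hu1, hu1']
      · rw [hu2, hu2']
      · rw [h.adj, h'.adj, hu2, hu2']
      · rw [h.adj, h'.adj, h.sq, h'.sq, map_zero, map_zero]
    have h1 : B.compl₁₂ (g : V →ₗ[F] V) (g : V →ₗ[F] V) = B := by
      apply LinearMap.ext_basis b b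
      intro i j
      rw [LinearMap.compl₁₂_apply]
      change B (g (b i)) (g (b j)) = _
      rw [hg, hg, key]
    intro x y
    have h2 := LinearMap.congr_fun₂ h1 x y
    rw [LinearMap.compl₁₂_apply] at h2
    exact h2
  · have h1 : (g : V →ₗ[F] V) ∘ₗ N = N' ∘ₗ (g : V →ₗ[F] V) := by
      apply b.ext
      intro i
      change g (N (b i)) = N' (g (b i))
      rw [hg]
      rcases i with i | i
      · have e1 : N (b (Sum.inl i)) = b (Sum.inr i) := by rw [hb, hb]; rfl
        have e2 : N' (b' (Sum.inl i)) = b' (Sum.inr i) := by rw [hb', hb']; rfl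
        rw [e1, e2, hg]
      · have e1 : N (b (Sum.inr i)) = 0 := by rw [hb]; exact h.sq _
        have e2 : N' (b' (Sum.inr i)) = 0 := by rw [hb']; exact h'.sq _
        rw [e1, e2, map_zero]
    exact fun x => LinearMap.congr_fun h1 x

end Cfsg.Agent.H544.Rg
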