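import Cfsg.Agent.H544.Rg.Fix
import Cfsg.Agent.H544.Rg.Grp

/-!
# S3691, `Sp_6(q)`, `q` even: an involution of rank three in `K` (helper544)

* `com y = [V, y]`
* `exists_uw` : a `2`-group on a plane
* `card_le` : a `2`-subgroup centralising `y` has order `≤ q`
* `four` : an involution `x ∈ K` with `dim C_V(x) = 3`.
-/

set_option autoImplicit false
set_option linter.unusedSectionVars false

namespace Cfsg.Agent.H544.Rg

open Module Subgroup

universe u v

variable {F : Type u} {V : Type v} [Field F] [AddCommGroup V] [Module F V]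

/-- `[V, y]` -/
def com (y : V ≃ₗ[F] V) : Submodule F V := LinearMap.range ((y : V →ₗ[F] V) - LinearMap.id)

theorem mem_com {y : V ≃ₗ[F] V} {w : V} : w ∈ com y ↔ ∃ v, y v - v = w := Iff.rfl

theorem finrank_com [FiniteDimensional F V] (y : V ≃ₗ[F] V) :
    finrank F (com y) + finrank F (fix y) = finrank F V := LinearMap.finrank_range_add_finrank_ker _

theorem com_inf_fix {y : V ≃ₗ[F] V} {r : ℕ} (hr : (r : F) ≠ 0) (hy : y ^ r = 1) : com y ⊓ fix y = ⊥ := by
  rw [eq_bot_iff]
  rintro w ⟨⟨v, hv⟩, hw⟩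
  have hv' : y v - v = w := hv
  have hw' : y w = w := mem_fix.1 hw
  have h1 : ∀ n : ℕ, (y ^ n) v = v + (n : F) • w := by
    intro n
    induction n with
    | zero =>
      rw [Nat.cast_zero, zero_smul, add_zero]
      rfl
    | succ n ih =>
      rw [pow_succ']
      change y ((y ^ n) v) = _
      rw [ih, map_add, map_smul, hw', sub_eq_iff_eq_add.1 hv', Nat.cast_succ, add_smul, one_smul]
      abel
  have h2 := h1 r
  rw [hy] at h2
  have h3 : v = v + (r : F) • w := h2
  have h4 : (r : F) • w = 0 := by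
    exact left_eq_add.1 h3
  exact (smul_eq_zero.1 h4).resolve_left hr

theorem isCompl_fix_com [FiniteDimensional F V] {y : V ≃ₗ[F] V} {r : ℕ} (hr : (r : F) ≠ 0) (hy : y ^ r = 1) :
    IsCompl (fix y) (com y) := by
  have h1 := com_inf_fix hr hy
  rw [inf_comm] at h1
  refine ⟨disjoint_iff.2 h1, codisjoint_iff.2 ?_⟩
  apply Submodule.eq_top_of_finrank_eq
  have h2 := Submodule.finrank_sup_add_finrank_inf_eq (fix y) (com y)
  rw [h1, finrank_bot, add_zero] at h2
  have h3 := finrank_com y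
  omega

theorem pow_fix {y : V ≃ₗ[F] V} {u : V} (hu : y u = u) (n : ℕ) : (y ^ n) u = u := by
  induction n with
  | zero => rfl
  | succ n ih =>
    rw [pow_succ']
    change y ((y ^ n) u) = u
    rw [ih, hu]

theorem pow_com (y : V ≃ₗ[F] V) (v : V) (n : ℕ) : (y ^ n) v - v ∈ com y := by
  induction n with
  | zero =>
    rw [pow_zero]
    change v - v ∈ com y
    rw [sub_self]
    exact zero_mem _
  | succ n ih =>
    rw [pow_succ']
    change y ((y ^ n) v) - v ∈ com y
    have : y ((y ^ n) v) - v = (y ((y ^ n) v) - (y ^ n) v) + ((y ^ n) v - v) := by abel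
    rw [this]
    exact add_mem (mem_com.2 ⟨_, rfl⟩) ih

theorem fix_inv {x y : V ≃ₗ[F] V} {n : ℕ} (h : x⁻¹ * y * x = y ^ n) {u : V} (hu : u ∈ fix y) : x u ∈ fix y := by
  rw [mem_fix] at hu ⊢
  have h1 : y * x = x * y ^ n := by rw [← h]; group
  have h2 : y (x u) = x ((y ^ n) u) := LinearEquiv.congr_fun h1 u
  rw [h2, pow_fix hu]

theorem com_inv {x y : V ≃ₗ[F] V} {n : ℕ} (h : x * y * x⁻¹ = y ^ n) {w : V} (hw : w ∈ com y) : x w ∈ com y := by
  obtain ⟨v, rfl⟩ := mem_com.1 hw
  have h1 : x * y = y ^ n * x := by rw [← h]; group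
  have h2 : x (y v) = (y ^ n) (x v) := LinearEquiv.congr_fun h1 v
  rw [map_sub, h2]
  exact pow_com y (x v) n

/-- the fixed space of an involution -/
theorem le_two_mul_fix [CharP F 2] [FiniteDimensional F V] {t : V ≃ₗ[F] V} {W : Submodule F V}
    (hW : ∀ w ∈ W, t w ∈ W) (ht : ∀ w ∈ W, t (t w) = w) :
    finrank F W ≤ 2 * finrank F (W ⊓ fix t : Submodule F V) := by
  let N : W →ₗ[F] V := ((t : V →ₗ[F] V) - LinearMap.id).comp W.subtype
  have h1 := LinearMap.finrank_range_add_finrank_ker N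
  have h2 : finrank F (LinearMap.range N) ≤ finrank F (W ⊓ fix t : Submodule F V) := by
    apply Submodule.finrank_mono
    rintro _ ⟨w, rfl⟩
    have e : N w = t w - w := rfl
    refine ⟨?_, ?_⟩
    · rw [SetLike.mem_coe, e]
      exact W.sub_mem (hW w w.2) w.2
    · rw [SetLike.mem_coe, mem_fix, e, map_sub, ht w w.2, ← neg_sub, neg_eq_of_add_eq_zero_left]
      exact add_self_V (F := F) _
  have h3 : finrank F (LinearMap.ker N) ≤ finrank F (W ⊓ fix t : Submodule F V) := by
    have e : (LinearMap.ker N).map W.subtype ≤ W ⊓ fix t := by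
      rintro _ ⟨w, hw, rfl⟩
      refine ⟨w.2, ?_⟩
      rw [SetLike.mem_coe, mem_fix]
      have h4 : t (w : V) - w = 0 := LinearMap.mem_ker.1 hw
      exact sub_eq_zero.1 h4
    have h5 := Submodule.finrank_mono e
    rwa [Submodule.finrank_map_subtype_eq] at h5
  omega

/-- a `2`-group acting on a plane -/
theorem exists_uw [Finite F] [CharP F 2] [Finite V] {S : Subgroup (V ≃ₗ[F] V)} (hS : IsPGroup 2 S)
    {U : Submodule F V} (hU2 : finrank F U = 2) (hinv : ∀ s ∈ S, ∀ u ∈ U, s u ∈ U) :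
    ∃ u ∈ U, ∃ w ∈ U, (∀ v ∈ U, ∃ a b : F, a • u + b • w = v) ∧ ∀ s ∈ S, s u = u ∧ ∃ β : F, s w = w + β • u := by
  have := Fact.mk Nat.prime_two
  let act : MulAction S U :=
    { smul := fun s u => ⟨(s : V ≃ₗ[F] V) u, hinv s s.2 u u.2⟩
      one_smul := fun u => rfl
      mul_smul := fun s t u => rfl }
  have h2 : 2 ∣ Nat.card U := by
    rw [Module.natCard_eq_pow_finrank (K := F), hU2]
    refine dvd_pow ?_ two_ne_zero
    have := Fintype.ofFinite F
    rw [Nat.card_eq_fintype_card, ← CharP.cast_eq_zero_iff F 2]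
    exact Nat.cast_card_eq_zero F
  have h0 : (0 : U) ∈ MulAction.fixedPoints S U := fun s => Subtype.ext (map_zero (s : V ≃ₗ[F] V))
  obtain ⟨u, hu, hu0⟩ := hS.exists_fixed_point_of_prime_dvd_card_of_fixed_point U h2 h0
  have hu1 : (u : V) ≠ 0 := fun h => hu0 (Subtype.ext h.symm)
  have hfix : ∀ s ∈ S, s (u : V) = u := fun s hs => congrArg Subtype.val (hu ⟨s, hs⟩)
  obtain ⟨w, hwU, hw⟩ : ∃ w ∈ U, w ∉ Submodule.span F {(u : V)} := by
    by_contra hcon
    push Not at hcon
    have h3 := Submodule.finrank_mono (show U ≤ Submodule.span F {(u : V)} from hcon)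
    rw [hU2, finrank_span_singleton hu1] at h3
    omega
  have hli : LinearIndependent F ![(u : V), w] := by
    rw [LinearIndependent.pair_iff]
    intro a b hab
    have hb : b = 0 := by
      by_contra hb
      apply hw
      rw [Submodule.mem_span_singleton]
      refine ⟨-(b⁻¹ * a), ?_⟩
      have h3 : b • w = -(a • (u : V)) := eq_neg_of_add_eq_zero_right hab
      have h4 : w = b⁻¹ • (b • w) := by rw [smul_smul, inv_mul_cancel₀ hb, one_smul]
      rw [h4, h3, smul_neg, smul_smul, neg_smul]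
    rw [hb, zero_smul, add_zero] at hab
    exact ⟨(smul_eq_zero.1 hab).resolve_right hu1, hb⟩
  have hspan : Submodule.span F {(u : V), w} = U := by
    apply Submodule.eq_of_le_of_finrank_eq
    · rw [Submodule.span_le]
      rintro _ (rfl | rfl)
      · exact u.2
      · exact hwU
    · have h3 := finrank_span_eq_card hli
      rw [Fintype.card_fin, Matrix.range_cons, Matrix.range_cons, Matrix.range_empty, Set.union_empty,
        Set.singleton_union] at h3
      rw [hU2, h3]
  have hdec : ∀ v ∈ U, ∃ a b : F, a • (u : V) + b • w = v := by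
    intro v hv
    rw [← hspan] at hv
    exact Submodule.mem_span_pair.1 hv
  refine ⟨u, u.2, w, hwU, hdec, fun s hs => ⟨hfix s hs, ?_⟩⟩
  obtain ⟨β, α, hαβ⟩ := hdec (s w) (hinv s hs w hwU)
  have h3 : ∀ n : ℕ, ∃ γ : F, (s ^ n) w = α ^ n • w + γ • (u : V) := by
    intro n
    induction n with
    | zero =>
      refine ⟨0, ?_⟩
      rw [pow_zero, pow_zero, one_smul, zero_smul, add_zero]
      rfl
    | succ n ih =>
      obtain ⟨γ, hγ⟩ := ih
      refine ⟨α ^ n * β + γ, ?_⟩
      rw [pow_succ']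
      change s ((s ^ n) w) = _
      rw [hγ, map_add, map_smul, map_smul, hfix s hs, ← hαβ, smul_add, smul_smul, smul_smul, add_smul, pow_succ]
      abel
  obtain ⟨m, hm⟩ := hS ⟨s, hs⟩
  have hm' : s ^ 2 ^ m = 1 := congrArg Subtype.val hm
  obtain ⟨γ, hγ⟩ := h3 (2 ^ m)
  rw [hm'] at hγ
  have h4 : w = α ^ 2 ^ m • w + γ • (u : V) := hγ
  have h5 : γ • (u : V) + (α ^ 2 ^ m - 1) • w = 0 := by
    rw [sub_smul, one_smul]
    nth_rewrite 2 [h4]
    abel
  have h6 := (LinearIndependent.pair_iff.1 hli γ _ h5).2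
  have h7 : (α - 1) ^ 2 ^ m = 0 := by
    rw [sub_pow_char_pow, one_pow, h6]
  have h8 : α = 1 := sub_eq_zero.1 (pow_eq_zero_iff (pow_ne_zero _ two_ne_zero) |>.1 h7)
  exact ⟨β, by rw [← hαβ, h8, one_smul, add_comm]⟩

/-- the numerical hypotheses -/
structure Hyp (F : Type u) (V : Type v) [Field F] [AddCommGroup V] [Module F V] (r a : ℕ) : Prop where
  card : Nat.card F = 2 ^ a
  pos : 0 < a
  prime : r.Prime
  ndvd : ¬ r ∣ Nat.card F
  four : ∀ k, r ∣ Nat.card F ^ k - 1 → 4 ∣ k
  ord : orderOf (Nat.card F : ZMod r) = 4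
  two : ∀ m, r ∣ 2 ^ m - 1 → 4 * a ∣ m
  dim : finrank F V = 6

namespace Hyp

variable [Finite F] [CharP F 2] [Finite V] {r a : ℕ} (H : Hyp F V r a)

include H

theorem two_dvd : 2 ∣ Nat.card F := by
  rw [H.card]
  exact dvd_pow_self _ H.pos.ne'

theorem ne_two : r ≠ 2 := by
  rintro rfl
  exact H.ndvd H.two_dvd

theorem cast_ne : (r : F) ≠ 0 := by
  intro h
  rw [CharP.cast_eq_zero_iff F 2] at h
  exact H.ne_two ((Nat.prime_dvd_prime_iff_eq Nat.prime_two H.prime).1 h).symm

theorem odd : r % 2 = 1 := H.prime.eq_two_or_odd.resolve_left H.ne_two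

theorem fix_two {y : V ≃ₗ[F] V} (hy : orderOf y = r) : finrank F (fix y) = 2 := by
  have h1 := dvd_finrank H.prime H.ndvd H.four y (n := 1) (by rw [pow_one, ← hy]; exact pow_orderOf_eq_one y)
    (U := ⊤) (fun _ _ => trivial)
  rw [finrank_top, top_inf_eq, H.dim] at h1
  have h2 : finrank F (fix y) ≠ 6 := by
    intro h
    have h3 : fix y = ⊤ := Submodule.eq_top_of_finrank_eq (by rw [h, H.dim])
    have h4 : y = 1 := by
      ext v
      have h5 : v ∈ fix y := by rw [h3]; trivial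
      exact mem_fix.1 h5
    rw [h4, orderOf_one] at hy
    exact H.prime.one_lt.ne hy
  have h3 := Submodule.finrank_le (fix y)
  rw [H.dim] at h3
  omega

theorem com_four {y : V ≃ₗ[F] V} (hy : orderOf y = r) : finrank F (com y) = 4 := by
  have h1 := finrank_com y
  have h2 := H.fix_two hy
  have h3 := H.dim
  omega

theorem pow_eq {y : V ≃ₗ[F] V} (hy : orderOf y = r) : y ^ r = 1 := by
  rw [← hy]
  exact pow_orderOf_eq_one y

theorem compl {y : V ≃ₗ[F] V} (hy : orderOf y = r) : IsCompl (fix y) (com y) :=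
  isCompl_fix_com H.cast_ne (H.pow_eq hy)

theorem inv_eq {y : V ≃ₗ[F] V} (hy : orderOf y = r) : y⁻¹ = y ^ (r - 1) := by
  rw [inv_eq_iff_mul_eq_one, ← pow_succ', Nat.sub_add_cancel H.prime.one_lt.le, H.pow_eq hy]

/-- elements of `2`-power order commuting with `y` are trivial on `[V, y]` -/
theorem com_le_fix {y s : V ≃ₗ[F] V} (hy : orderOf y = r) (hys : y * s * y⁻¹ = s) {m : ℕ} (hs : s ^ 2 ^ m = 1) :
    com y ≤ fix s := by
  have h1 : y * s = s * y := mul_inv_eq_iff_eq_mul.1 hys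
  refine trivial_on Nat.prime_two H.two_dvd H.prime H.ndvd H.four (y := y) (n := 1) (by rw [pow_one]; exact H.pow_eq hy)
    hs h1 (fun w hw => com_inv (n := 1) (by group) hw) (fun w hw => com_inv (n := 1) ?_ hw) (H.com_four hy) ?_
  · rw [pow_one, ← h1]
    group
  · exact com_inf_fix H.cast_ne (H.pow_eq hy)

/-- a `2`-group centralising `y` has order at most `q` -/
theorem card_le {y : V ≃ₗ[F] V} (hy : orderOf y = r) {S : Subgroup (V ≃ₗ[F] V)} (hS : IsPGroup 2 S)
    (hc : ∀ s ∈ S, y * s * y⁻¹ = s) : Nat.card S ≤ Nat.card F := by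
  have hinv : ∀ s ∈ S, ∀ u ∈ fix y, s u ∈ fix y := by
    intro s hs u hu
    refine fix_inv (n := 1) ?_ hu
    have h1 : y * s = s * y := mul_inv_eq_iff_eq_mul.1 (hc s hs)
    rw [pow_one, mul_assoc, h1]
    group
  obtain ⟨u, hu, w, hw, hdec, hsw⟩ := exists_uw hS (H.fix_two hy) hinv
  choose β hβ using fun s : S => (hsw s s.2).2
  refine Nat.card_le_card_of_injective β ?_
  intro s t hst
  apply Subtype.ext
  ext v
  have hv : v ∈ fix y ⊔ com y := by rw [(H.compl hy).sup_eq_top]; trivial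
  obtain ⟨x, hx, z, hz, rfl⟩ := Submodule.mem_sup.1 hv
  have triv : ∀ s : S, (s : V ≃ₗ[F] V) z = z := by
    intro s
    obtain ⟨m, hm⟩ := hS s
    exact mem_fix.1 (H.com_le_fix hy (hc s s.2) (m := m) (congrArg Subtype.val hm) hz)
  obtain ⟨c, d, rfl⟩ := hdec x hx
  simp only [map_add, map_smul, (hsw s s.2).1, (hsw t t.2).1, hβ, hst, triv]

/-- **an involution of rank three in `K`** -/
theorem exists_x {K : Subgroup (V ≃ₗ[F] V)} (hK1 : Nat.card F < 2 ^ (Nat.card K).factorization 2)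
    (hK2 : 2 ^ (Nat.card K).factorization 2 < 2 ^ (4 * a)) (hrK : r ∣ Nat.card K)
    (hcyc : ∀ P : Sylow r K, IsCyclic P)
    (hA : ∀ y ∈ K, orderOf y = r → ∃ b ∈ K, y * b * y⁻¹ = b ∧ b ≠ 1 ∧ b * b = 1) :
    ∃ x ∈ K, x * x = 1 ∧ finrank F (fix x) = 3 := by
  have hfin : Finite (V ≃ₗ[F] V) := Finite.of_injective (fun e : V ≃ₗ[F] V => (e : V → V)) DFunLike.coe_injective
  have hrf := Fact.mk H.prime
  have h2f := Fact.mk Nat.prime_two
  have hkk : ∀ y g : K, orderOf y = r → ∀ k : ℕ, g * y * g⁻¹ = y ^ k → (k : ZMod r) ^ 4 = 1 := by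
    intro y g hy k hg
    have hy' : orderOf (y : V ≃ₗ[F] V) = r := by rw [Subgroup.orderOf_coe, hy]
    refine pow_card_eq_one H.cast_ne H.ord (by rw [H.dim]; norm_num) (H.pow_eq hy') ?_ (g := (g : V ≃ₗ[F] V))
      (congrArg Subtype.val hg)
    rintro h
    rw [h, orderOf_one] at hy'
    exact H.prime.one_lt.ne hy'
  rcases exists_inv_or hcyc hkk with ⟨y, t₀, hy, ht₀⟩ | ⟨M, hM, hrM, n, hn⟩
  swap
  · exfalso
    obtain ⟨y, hy⟩ := exists_prime_orderOf_dvd_card' r hrK
    obtain ⟨S, hSM, hcS, hyS⟩ := exists_norm H.prime M hM hrM hy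
    have hMK : (Nat.card M).factorization 2 = (Nat.card K).factorization 2 := by
      rw [← M.card_mul_index, hn, Nat.factorization_mul Nat.card_pos.ne' (pow_ne_zero _ H.prime.ne_zero),
        Finsupp.add_apply, Nat.factorization_eq_zero_of_not_dvd (n := r ^ n) (p := 2), add_zero]
      intro h
      exact H.ne_two ((Nat.prime_dvd_prime_iff_eq Nat.prime_two H.prime).1 (Nat.prime_two.dvd_of_dvd_pow h)).symm
    rw [hMK] at hcS
    have hSp : IsPGroup 2 S := IsPGroup.of_card hcS
    have hyr : y ^ r = 1 := by rw [← hy]; exact pow_orderOf_eq_one y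
    have hcent := cent_of_lt H.prime H.ne_two H.two hSp (by rw [hcS]; exact hK2) hyS hyr
    have h1 := H.card_le (y := y) (S := S.map K.subtype) (by rw [Subgroup.orderOf_coe, hy])
      (hSp.map K.subtype) (by
        rintro _ ⟨s, hs, rfl⟩
        exact congrArg Subtype.val (hcent s hs))
    rw [Subgroup.card_map_of_injective K.subtype_injective, hcS] at h1
    omega
  · -- `t` of `2`-power order inverting `y`
    have hyo : orderOf (y : V ≃ₗ[F] V) = r := by rw [Subgroup.orderOf_coe, hy]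
    obtain ⟨t, htK, hty, m, hm⟩ : ∃ t : V ≃ₗ[F] V, t ∈ K ∧ t * y * t⁻¹ = (y : V ≃ₗ[F] V)⁻¹ ∧ ∃ m, t ^ 2 ^ m = 1 := by
      obtain ⟨j, m, hm, hjm⟩ := Nat.exists_eq_pow_mul_and_not_dvd (orderOf_pos t₀).ne' 2 (by norm_num)
      refine ⟨t₀ ^ m, (t₀ ^ m).2, ?_, j, ?_⟩
      · have h1 : ∀ k : ℕ, t₀ ^ (2 * k + 1) * y * (t₀ ^ (2 * k + 1))⁻¹ = y⁻¹ := by
          intro k
          induction k with
          | zero => rw [mul_zero, zero_add, pow_one, ht₀]
          | succ k ih =>
            have h2 : t₀ ^ (2 * (k + 1) + 1) * y * (t₀ ^ (2 * (k + 1) + 1))⁻¹ =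
                t₀ * (t₀ * (t₀ ^ (2 * k + 1) * y * (t₀ ^ (2 * k + 1))⁻¹) * t₀⁻¹) * t₀⁻¹ := by
              rw [show 2 * (k + 1) + 1 = (2 * k + 1) + 1 + 1 by ring, pow_succ', pow_succ']
              group
            rw [h2, ih]
            have h3 : t₀ * y⁻¹ * t₀⁻¹ = y := by
              have h4 : t₀ * y⁻¹ * t₀⁻¹ = (t₀ * y * t₀⁻¹)⁻¹ := by group
              rw [h4, ht₀, inv_inv]
            rw [h3, ht₀]
        have h4 := h1 (m / 2)
        rw [show 2 * (m / 2) + 1 = m by omega] at h4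
        exact congrArg Subtype.val h4
      · have h5 : (t₀ ^ m) ^ 2 ^ j = 1 := by rw [← pow_mul, mul_comm m, ← hjm, pow_orderOf_eq_one]
        exact congrArg Subtype.val h5
    have htinv : (t⁻¹ * y * t : V ≃ₗ[F] V) = (y : V ≃ₗ[F] V)⁻¹ := by
      have h1 : (y : V ≃ₗ[F] V) = t⁻¹ * (t * y * t⁻¹) * t := by group
      rw [hty] at h1
      have h2 := congrArg (fun x => x⁻¹) h1
      beta_reduce at h2
      rw [h2]
      group
    have htU : ∀ u ∈ fix (y : V ≃ₗ[F] V), t u ∈ fix (y : V ≃ₗ[F] V) := fun u hu =>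
      fix_inv (n := r - 1) (by rw [htinv, H.inv_eq hyo]) hu
    have htW : ∀ u ∈ com (y : V ≃ₗ[F] V), t u ∈ com (y : V ≃ₗ[F] V) := fun u hu =>
      com_inv (n := r - 1) (by rw [hty, H.inv_eq hyo]) hu
    have hcompl := H.compl hyo
    -- `t ^ 2 = 1`
    have htt : ∀ v, t (t v) = v := by
      intro v
      have hv : v ∈ fix (y : V ≃ₗ[F] V) ⊔ com (y : V ≃ₗ[F] V) := by rw [hcompl.sup_eq_top]; trivial
      obtain ⟨x, hx, z, hz, rfl⟩ := Submodule.mem_sup.1 hv
      have hz' : t (t z) = z := by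
        have h1 : (y : V ≃ₗ[F] V) * (t * t) * (y : V ≃ₗ[F] V)⁻¹ = t * t := by
          have h2 : (y : V ≃ₗ[F] V) * t = t * (y : V ≃ₗ[F] V)⁻¹ := by rw [← htinv]; group
          have h3 : (y : V ≃ₗ[F] V)⁻¹ * t = t * (y : V ≃ₗ[F] V) := by rw [← hty]; group
          rw [← mul_assoc, h2, mul_assoc t, h3]
          group
        have h2 : (t * t) ^ 2 ^ m = 1 := by
          rw [← pow_two, ← pow_mul, mul_comm, pow_mul, hm, one_pow]
        exact mem_fix.1 (H.com_le_fix hyo h1 h2 hz)
      have hx' : t (t x) = x := by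
        have hS : IsPGroup 2 (zpowers t) := by
          rw [IsPGroup.iff_card]
          obtain ⟨j, -, hj⟩ := (Nat.dvd_prime_pow Nat.prime_two).1 (orderOf_dvd_of_pow_eq_one hm)
          exact ⟨j, by rw [Nat.card_zpowers, hj]⟩
        have hinv : ∀ s ∈ zpowers t, ∀ u ∈ fix (y : V ≃ₗ[F] V), s u ∈ fix (y : V ≃ₗ[F] V) := by
          intro s hs
          rw [← mem_powers_iff_mem_zpowers] at hs
          obtain ⟨k, rfl⟩ := hs
          exact pow_mem_of t htU k
        obtain ⟨u, hu, w, hw, hdec, hsw⟩ := exists_uw hS (H.fix_two hyo) hinv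
        obtain ⟨htu, β, hβ⟩ := hsw t (mem_zpowers t)
        obtain ⟨c, d, rfl⟩ := hdec x hx
        have e1 : t (t w) = w := by
          rw [hβ, map_add, hβ, map_smul, htu, add_assoc, add_self_V (F := F), add_zero]
        simp only [map_add, map_smul, htu, e1]
      rw [map_add, map_add, hz', hx']
    have hsplit := finrank_fix_split hcompl htU htW
    have hge := le_two_mul_fix (t := t) (W := ⊤) (fun _ _ => trivial) (fun w _ => htt w)
    rw [finrank_top, H.dim, top_inf_eq] at hge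
    have hodd := fix_of_sq H.odd (H.pow_eq hyo)
    have hWle := two_mul_fix (y := (y : V ≃ₗ[F] V)) (t := t) hodd hty (W := com (y : V ≃ₗ[F] V))
      (fun w hw => com_inv (n := 1) (by group) hw) (com_inf_fix H.cast_ne (H.pow_eq hyo))
    rw [H.com_four hyo] at hWle
    have hUle : finrank F (fix (y : V ≃ₗ[F] V) ⊓ fix t : Submodule F V) ≤ 2 := by
      rw [← H.fix_two hyo]
      exact Submodule.finrank_mono inf_le_left
    by_cases h3 : finrank F (fix t) = 3
    · exact ⟨t, htK, LinearEquiv.ext htt, h3⟩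
    · have hU2 : finrank F (fix (y : V ≃ₗ[F] V) ⊓ fix t : Submodule F V) = 2 := by omega
      have hW2 : finrank F (com (y : V ≃ₗ[F] V) ⊓ fix t : Submodule F V) = 2 := by omega
      have hUt : fix (y : V ≃ₗ[F] V) ≤ fix t := by
        have := Submodule.eq_of_le_of_finrank_eq (inf_le_left : fix (y : V ≃ₗ[F] V) ⊓ fix t ≤ fix (y : V ≃ₗ[F] V))
          (by rw [hU2, H.fix_two hyo])
        rw [← this]
        exact inf_le_right
      obtain ⟨b, hbK, hyb, hb1, hbb⟩ := hA y y.2 hyo
      have hWb : com (y : V ≃ₗ[F] V) ≤ fix b := H.com_le_fix hyo hyb (m := 1) (by rw [pow_one, pow_two, hbb])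
      have hyb' : (y : V ≃ₗ[F] V) * b = b * y := mul_inv_eq_iff_eq_mul.1 hyb
      have hbU : ∀ u ∈ fix (y : V ≃ₗ[F] V), b u ∈ fix (y : V ≃ₗ[F] V) := fun u hu =>
        fix_inv (n := 1) (by rw [mul_assoc, hyb']; group) hu
      have hbb' : ∀ v, b (b v) = v := fun v => LinearEquiv.congr_fun hbb v
      have hUb : finrank F (fix (y : V ≃ₗ[F] V) ⊓ fix b : Submodule F V) = 1 := by
        have h4 := le_two_mul_fix (t := b) (W := fix (y : V ≃ₗ[F] V)) hbU (fun w _ => hbb' w)
        rw [H.fix_two hyo] at h4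
        have h5 : finrank F (fix (y : V ≃ₗ[F] V) ⊓ fix b : Submodule F V) ≤ 2 := by
          rw [← H.fix_two hyo]
          exact Submodule.finrank_mono inf_le_left
        have h6 : finrank F (fix (y : V ≃ₗ[F] V) ⊓ fix b : Submodule F V) ≠ 2 := by
          intro h6
          have h7 := Submodule.eq_of_le_of_finrank_eq (inf_le_left : fix (y : V ≃ₗ[F] V) ⊓ fix b ≤ fix (y : V ≃ₗ[F] V))
            (by rw [h6, H.fix_two hyo])
          apply hb1
          ext v
          have hv : v ∈ fix (y : V ≃ₗ[F] V) ⊔ com (y : V ≃ₗ[F] V) := by rw [hcompl.sup_eq_top]; trivial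
          have h8 : fix (y : V ≃ₗ[F] V) ⊔ com (y : V ≃ₗ[F] V) ≤ fix b := sup_le (by rw [← h7]; exact inf_le_right) hWb
          exact mem_fix.1 (h8 hv)
        omega
      refine ⟨t * b, K.mul_mem htK hbK, ?_, ?_⟩
      · ext v
        have hv : v ∈ fix (y : V ≃ₗ[F] V) ⊔ com (y : V ≃ₗ[F] V) := by rw [hcompl.sup_eq_top]; trivial
        obtain ⟨x, hx, z, hz, rfl⟩ := Submodule.mem_sup.1 hv
        change t (b (t (b (x + z)))) = x + z
        rw [map_add, map_add, map_add, map_add, mem_fix.1 (hUt (hbU x hx)), hbb', mem_fix.1 (hUt hx),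
          mem_fix.1 (hWb hz), mem_fix.1 (hWb (htW z hz)), htt]
      · rw [finrank_fix_split hcompl (x := t * b) (fun u hu => htU _ (hbU u hu)) (fun w hw => ?_)]
        · have e1 : fix (y : V ≃ₗ[F] V) ⊓ fix (t * b) = fix (y : V ≃ₗ[F] V) ⊓ fix b := by
            ext v
            simp only [Submodule.mem_inf]
            refine and_congr_right fun hv => ?_
            rw [mem_fix, mem_fix]
            change t (b v) = v ↔ _
            rw [mem_fix.1 (hUt (hbU v hv))]
          have e2 : com (y : V ≃ₗ[F] V) ⊓ fix (t * b) = com (y : V ≃ₗ[F] V) ⊓ fix t := by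
            ext v
            simp only [Submodule.mem_inf]
            refine and_congr_right fun hv => ?_
            rw [mem_fix, mem_fix]
            change t (b v) = v ↔ _
            rw [mem_fix.1 (hWb hv)]
          rw [e1, e2, hUb, hW2]
        · change t (b w) ∈ _
          rw [mem_fix.1 (hWb hw)]
          exact htW w hw

end Hyp

end Cfsg.Agent.H544.Rg
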